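import Cfsg.Agent.H526.OneBlock
import Cfsg.Agent.Blocks.FullDefect
import Cfsg.Agent.H713.Engine
import Cfsg.Agent.H464.PslDeg
import Cfsg.Agent.OddHalf.LongSL.Abs

/-!
# More than one 2-block: defect zero, `PSL₂(q)`, long `SL₂(q)` (helper115, hub S5004 / S5007)

* `nb_of_zero` : an irreducible character vanishing at an element with centralizer of odd index;
* `nb_of_hasDZ` : a character of 2-defect zero;
* `nb_of_subnormal` : from a subnormal subgroup;
* `nb_psl_two` : `PSL₂(q)`, `q ≥ 5` odd;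
* `nb_of_hasLong` : a long `SL₂(q)`, `q > 3`.
-/

set_option autoImplicit false

open Cfsg

namespace Cfsg.Agent.H115.NBk

open Cfsg.Agent.H526.OB Cfsg.Agent.H665.NoPQ

/-- An irreducible character vanishing at an element whose centralizer has odd index is outside the principal block. -/
theorem nb_of_zero {G : Type*} [Group G] [Finite G] {z : G} (hz : ¬ 2 ∣ (Subgroup.centralizer ({z} : Set G)).index)
    (χ : IrrCharacter G) (hχ : (χ : G → ℂ) z = 0) : NB G := by
  intro M hM
  refine ⟨χ, fun hcon => hz ?_⟩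
  have h1 : MemLocalIdeal M (centralChar (fun _ : G => (1 : ℂ)) z - centralChar (χ : G → ℂ) z) := hcon z
  have h2 : centralChar (fun _ : G => (1 : ℂ)) z = ((Subgroup.centralizer ({z} : Set G)).index : ℂ) := by
    unfold centralChar
    rw [mul_one, div_one]
  have h3 : centralChar (χ : G → ℂ) z = 0 := by
    unfold centralChar
    rw [hχ, mul_zero, zero_div]
  rw [h2, h3, sub_zero] at h1
  exact (Cfsg.Agent.Blocks.Local.memLocalIdeal_natCast_iff hM _).1 h1

/-- an involution in the centre of a Sylow 2-subgroup -/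
theorem exists_central_two {G : Type*} [Group G] [Finite G] (h2 : 2 ∣ Nat.card G) :
    ∃ z : G, orderOf z = 2 ∧ ¬ 2 ∣ (Subgroup.centralizer ({z} : Set G)).index := by
  have hf : Fact (Nat.Prime 2) := ⟨Nat.prime_two⟩
  have P : Sylow 2 G := default
  have hP : Nontrivial ↥(P : Subgroup G) := by
    rw [← Finite.one_lt_card_iff_nontrivial]
    have h1 := P.dvd_card_of_dvd_card h2
    exact lt_of_lt_of_le one_lt_two (Nat.le_of_dvd Nat.card_pos h1)
  have hc := P.isPGroup'.center_nontrivial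
  have h1 : 2 ∣ Nat.card (Subgroup.center ↥(P : Subgroup G)) := by
    have h3 := (P.isPGroup'.to_subgroup (Subgroup.center _)).card_eq_or_dvd
    rcases h3 with h3 | h3
    · exfalso
      have := Finite.one_lt_card_iff_nontrivial.2 hc
      omega
    · exact h3
  obtain ⟨z, hz⟩ := exists_prime_orderOf_dvd_card' 2 h1
  refine ⟨((z : ↥(P : Subgroup G)) : G), by rw [Subgroup.orderOf_coe, Subgroup.orderOf_coe, hz], ?_⟩
  exact Cfsg.Agent.Blocks.FullDefect.not_dvd_index P (Subgroup.mem_centralizer_iff.2 fun x hx =>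
    congrArg Subtype.val ((Subgroup.mem_center_iff.1 z.2) ⟨x, hx⟩))

/-- **A character of 2-defect zero is outside the principal block.** -/
theorem nb_of_hasDZ {G : Type*} [Group G] [Finite G] (h2 : 2 ∣ Nat.card G) (h : HasDZ 2 G) : NB G := by
  have : Fact (Nat.Prime 2) := ⟨Nat.prime_two⟩
  obtain ⟨χ, hχ⟩ := h
  obtain ⟨z, hz, hzi⟩ := exists_central_two h2
  exact nb_of_zero hzi χ (Cfsg.Agent.H713.irr_zero_of_singular hχ (by rw [hz]))

/-- from a subnormal subgroup -/
theorem nb_of_subnormal {G : Type*} [Group G] [Finite G] {K : Subgroup G} (hK : K.IsSubnormal) (h : NB K) : NB G := by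
  induction hK with
  | top => exact NB.iso Subgroup.topEquiv h
  | step H K h_le hSubn hN ih =>
    exact ih (NB.of_normal (H.subgroupOf K) (NB.iso (Subgroup.subgroupOfEquivOfLe h_le).symm h))

/-- a 2-part computation -/
theorem fact_aux {n d m : ℕ} (hn : n ≠ 0) (hd : d ∣ n) (hm : n = d * m) (hodd : ¬ 2 ∣ m) :
    d.factorization 2 = n.factorization 2 := by
  have hm0 : m ≠ 0 := by
    rintro rfl
    exact hn (by rw [hm, mul_zero])
  have hd0 : d ≠ 0 := by
    rintro rfl
    exact hn (by rw [hm, zero_mul])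
  rw [hm, Nat.factorization_mul hd0 hm0, Finsupp.add_apply, Nat.factorization_eq_zero_of_not_dvd hodd, add_zero]

theorem card_even {F : Type*} [Field F] [Fintype F] (hodd : Odd (Fintype.card F)) (h5 : 5 ≤ Fintype.card F) :
    2 ∣ Nat.card (Matrix.ProjectiveSpecialLinearGroup (Fin 2) F) := by
  have h1 := Cfsg.Agent.ClassicalGeometry.PSL2Basic.card_PSL2_odd (F := F) hodd
  obtain ⟨k, hk⟩ := hodd
  generalize Fintype.card F = q at *
  subst hk
  have e : (2 * k + 1) ^ 2 - 1 = 4 * (k * (k + 1)) := by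
    have : (2 * k + 1) ^ 2 = 4 * (k * (k + 1)) + 1 := by ring
    omega
  rw [e] at h1
  exact ⟨(2 * k + 1) * (k * (k + 1)), by
    have : Nat.card (Matrix.ProjectiveSpecialLinearGroup (Fin 2) F) * 2 = (2 * ((2 * k + 1) * (k * (k + 1)))) * 2 := by
      rw [h1]
      ring
    omega⟩

/-- **`PSL₂(q)`, `q ≥ 5` odd, has a character of 2-defect zero.** -/
theorem hasDZ_psl_two {F : Type*} [Field F] [Fintype F] (hodd : Odd (Fintype.card F)) (h5 : 5 ≤ Fintype.card F) :
    HasDZ 2 (Matrix.ProjectiveSpecialLinearGroup (Fin 2) F) := by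
  have hcard := Cfsg.Agent.ClassicalGeometry.PSL2Basic.card_PSL2_odd (F := F) hodd
  have hpos : Nat.card (Matrix.ProjectiveSpecialLinearGroup (Fin 2) F) ≠ 0 := Nat.card_pos.ne'
  have key : ∀ d m : ℕ, d ∈ charDegrees (Matrix.ProjectiveSpecialLinearGroup (Fin 2) F) →
      Nat.card (Matrix.ProjectiveSpecialLinearGroup (Fin 2) F) = d * m → ¬ 2 ∣ m →
      HasDZ 2 (Matrix.ProjectiveSpecialLinearGroup (Fin 2) F) := by
    intro d m hd hm h2
    obtain ⟨χ, rfl⟩ := hd
    exact ⟨χ, fact_aux hpos ⟨m, hm⟩ hm h2⟩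
  obtain ⟨k, hk⟩ := hodd
  rcases Nat.lt_or_ge (Fintype.card F) 7 with h7 | h7
  · have h5' : Fintype.card F = 5 := by omega
    have h4 := (Cfsg.Agent.H464.PslDeg.psl_four_five (F := F) h5').1
    rw [h5'] at hcard
    refine key 4 15 h4 (by omega) (by norm_num)
  · obtain ⟨hp, hm⟩ := Cfsg.Agent.H464.PslDeg.psl_degrees (F := F) h7
    generalize Fintype.card F = q at *
    subst hk
    have e : (2 * k + 1) ^ 2 - 1 = 4 * (k * (k + 1)) := by
      have : (2 * k + 1) ^ 2 = 4 * (k * (k + 1)) + 1 := by ring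
      omega
    rw [e] at hcard
    rcases Nat.even_or_odd k with hk | hk
    · refine key _ ((2 * k + 1) * (k + 1)) hm ?_ ?_
      · have e2 : 2 * k + 1 - 1 = 2 * k := by omega
        rw [e2]
        have : Nat.card (Matrix.ProjectiveSpecialLinearGroup (Fin 2) F) * 2 = (2 * k * ((2 * k + 1) * (k + 1))) * 2 := by
          rw [hcard]
          ring
        omega
      · rw [Nat.prime_two.dvd_mul]
        obtain ⟨j, rfl⟩ := hk
        omega
    · refine key _ ((2 * k + 1) * k) hp ?_ ?_
      · have : Nat.card (Matrix.ProjectiveSpecialLinearGroup (Fin 2) F) * 2 =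
            ((2 * k + 1 + 1) * ((2 * k + 1) * k)) * 2 := by
          rw [hcard]
          ring
        omega
      · rw [Nat.prime_two.dvd_mul]
        obtain ⟨j, rfl⟩ := hk
        omega

theorem nb_psl_two {F : Type*} [Field F] [Fintype F] (hodd : Odd (Fintype.card F)) (h5 : 5 ≤ Fintype.card F) :
    NB (Matrix.ProjectiveSpecialLinearGroup (Fin 2) F) :=
  nb_of_hasDZ (card_even hodd h5) (hasDZ_psl_two hodd h5)

theorem nb_sl_two {F : Type*} [Field F] [Fintype F] (hodd : Odd (Fintype.card F)) (h5 : 5 ≤ Fintype.card F) :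
    NB (Matrix.SpecialLinearGroup (Fin 2) F) :=
  NB.of_surjective (QuotientGroup.mk' (Subgroup.center (Matrix.SpecialLinearGroup (Fin 2) F)))
    (QuotientGroup.mk'_surjective _) (by rw [QuotientGroup.ker_mk']) (nb_psl_two hodd h5)

open Cfsg.Agent.OddHalf.LongSL in
/-- **A long `SL₂(q)`, `q > 3`.** -/
theorem nb_of_hasLong {G : Type*} [Group G] [Finite G] {q : ℕ} (h : HasLong q G) (h3 : 3 < q) : NB G := by
  obtain ⟨j, J, hj, hjJ, hJ, hs, F, _, _, hF, ho, ⟨e⟩⟩ := h
  have hF' : Odd (Fintype.card F) := by rw [hF]; exact ho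
  have h5 : 5 ≤ Fintype.card F := by
    rw [hF]
    obtain ⟨k, hk⟩ := ho
    omega
  refine NB.of_centralizer_singleton j ⟨1, by rw [pow_one, ← hj, pow_orderOf_eq_one]⟩ ?_
  exact nb_of_subnormal hs (NB.iso (Subgroup.subgroupOfEquivOfLe hJ).symm (NB.iso e.symm (nb_sl_two hF' h5)))

end Cfsg.Agent.H115.NBk
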